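import Cfsg.Agent.H440.Bs.Iso
import Cfsg.Agent.H84.RG.L10

/-!
# UX (S5716): no invariant form for an element which is irreducible on `E` and trivial on a complement (helper289)
-/

set_option autoImplicit false

namespace Cfsg.Agent.H289.Ux

open Module Cfsg.Agent.H847.Bs Cfsg.Agent.H440.Bs

section

variable {F U : Type} [Field F] [AddCommGroup U] [Module F U] [Module.Finite F U]

omit [Module.Finite F U] in
/-- no eigenvectors on `E` -/
theorem no_eig {E : Submodule F U} {g : U ≃ₗ[F] U} (hirr : ∀ W ≤ E, Inv g W → W = ⊥ ∨ W = E)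
    (hd : 2 ≤ finrank F E) {u : U} (hu : u ∈ E) (c : F) (h : g u = c • u) : u = 0 := by
  by_contra hne
  have h1 := hirr (Submodule.span F {u}) ((Submodule.span_singleton_le_iff_mem _ _).2 hu) (by
    intro v hv
    obtain ⟨a, rfl⟩ := Submodule.mem_span_singleton.1 hv
    rw [map_smul, h]
    exact Submodule.smul_mem _ _ (Submodule.smul_mem _ _ (Submodule.mem_span_singleton_self u)))
  rcases h1 with h1 | h1
  · exact hne (Submodule.span_singleton_eq_bot.1 h1)
  · have h2 := finrank_span_singleton (K := F) hne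
    rw [h1] at h2
    omega

theorem surj_sub {E : Submodule F U} {g : U ≃ₗ[F] U} (hinv : Inv g E) (hirr : ∀ W ≤ E, Inv g W → W = ⊥ ∨ W = E)
    (hd : 2 ≤ finrank F E) (c : F) {w : U} (hw : w ∈ E) : ∃ u ∈ E, g u - c • u = w := by
  let T : E →ₗ[F] E := ((restr g hinv : E ≃ₗ[F] E) : E →ₗ[F] E) - c • (LinearMap.id : E →ₗ[F] E)
  have hinj : Function.Injective T := by
    rw [← LinearMap.ker_eq_bot, LinearMap.ker_eq_bot']
    intro m hm
    have h1 : (T m : U) = 0 := by rw [hm]; rfl
    have h2 : g (m : U) - c • (m : U) = 0 := h1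
    exact Subtype.ext (no_eig hirr hd m.2 c (sub_eq_zero.1 h2))
  obtain ⟨u, hu⟩ := LinearMap.injective_iff_surjective.1 hinj ⟨w, hw⟩
  exact ⟨u, u.2, congrArg Subtype.val hu⟩

/-- the order of an element which is trivial on a complement -/
theorem orderOf_restr {E C : Submodule F U} (hc : IsCompl E C) {g : U ≃ₗ[F] U} (hinv : Inv g E)
    (hfix : ∀ v ∈ C, g v = v) : orderOf (restr g hinv) = orderOf g := by
  have hC : Inv g C := fun v hv => by rw [hfix v hv]; exact hv
  have h1 : restr g hC = 1 := by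
    refine LinearEquiv.ext fun v => Subtype.ext ?_
    exact hfix v v.2
  have h2 := exists_glue_lin hc hinv hC
  rw [h1] at h2
  have h3 : orderOf (glueHom hc (restr g hinv, 1)) = orderOf (restr g hinv, (1 : C ≃ₗ[F] C)) :=
    orderOf_injective (glueHom hc) (glueHom_injective hc) _
  rw [glueHom_apply] at h3
  rw [← h2, Prod.orderOf, orderOf_one, Nat.lcm_one_right] at h3
  exact h3.symm

theorem no_form [Finite F] {E C : Submodule F U} (hc : IsCompl E C) {g : U ≃ₗ[F] U} (hfix : ∀ v ∈ C, g v = v) (hC : C ≠ ⊥)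
    (hinv : Inv g E) (hirr : ∀ W ≤ E, Inv g W → W = ⊥ ∨ W = E) {e : ℕ} (he : 2 ≤ e) (hdim : finrank F E = e)
    {r : ℕ} (hr : r.Prime) (hrg : r ∣ orderOf g) (hord : orderOf ((Nat.card F : ℕ) : ZMod r) = e)
    (s : F → F) (hs : (∀ a, s a = a) ∧ Odd e ∨ (∃ t : ℕ, Nat.card F = t ^ 2 ∧ (∀ a, s a = a ^ t)) ∧ Even e)
    (B : U → U → F) (b1 : ∀ x y w, B (x + y) w = B x w + B y w) (b2 : ∀ x y w, B x (y + w) = B x y + B x w)
    (b3 : ∀ (a : F) (x y), B (a • x) y = a * B x y) (b4 : ∀ (a : F) (x y), B x (a • y) = s a * B x y)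
    (brefl : ∀ x y, B x y = 0 → B y x = 0) (bnd : ∀ x, (∀ y, B x y = 0) → x = 0)
    (c : F) (hsim : ∀ u v, B (g u) (g v) = c * B u v) : False := by
  have hd : 2 ≤ finrank F E := hdim ▸ he
  have bneg : ∀ x w, B (-x) w = - B x w := fun x w => by
    rw [← neg_one_smul F x, b3, neg_one_mul]
  have bsub : ∀ x y w, B (x - y) w = B x w - B y w := fun x y w => by
    rw [sub_eq_add_neg, b1, bneg, sub_eq_add_neg]
  -- `B (g u - c u) v = 0` for `v ∈ C`
  have h0 : ∀ u, ∀ v ∈ C, B (g u - c • u) v = 0 := by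
    intro u v hv
    have h1 := hsim u v
    rw [hfix v hv] at h1
    rw [bsub, h1, b3, sub_self]
  -- `E ⟂ C`
  have hEC : ∀ u ∈ E, ∀ v ∈ C, B u v = 0 := by
    intro u hu v hv
    obtain ⟨w, hw, rfl⟩ := surj_sub hinv hirr hd c hu
    exact h0 w v hv
  have hc1 : c = 1 := by
    by_contra hc1
    obtain ⟨v, hv, hv0⟩ := Submodule.exists_mem_ne_zero_of_ne_bot hC
    refine hv0 (bnd v fun w => brefl _ _ ?_)
    obtain ⟨a, ha, b, hb, rfl⟩ := exists_add hc w
    rw [b1, hEC a ha v hv, zero_add]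
    have h1 := hsim b v
    rw [hfix v hv, hfix b hb] at h1
    have h2 : (1 - c) * B b v = 0 := by rw [sub_mul, one_mul, ← h1, sub_self]
    rcases mul_eq_zero.1 h2 with h3 | h3
    · exact absurd (sub_eq_zero.1 h3).symm hc1
    · exact h3
  subst hc1
  have hEE : ∀ x y : E, B x y = 0 := by
    refine Cfsg.Agent.H84.RG.l10 F E e r (restr g hinv) he ?_ hr ?_ hord s hs (fun x y => B x y) ?_ ?_ ?_ ?_ ?_
    · refine ⟨fun _ _ => trivial, ?_, ?_⟩
      · intro h
        have h1 : finrank F (⊤ : Submodule F E) = finrank F E := finrank_top F E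
        rw [h, finrank_bot] at h1
        omega
      · intro Y _ hY
        rcases hirr (Y.map E.subtype) (Submodule.map_subtype_le E Y) (by
          rintro _ ⟨w, hw, rfl⟩
          exact ⟨restr g hinv w, hY w hw, rfl⟩) with h1 | h1
        · exact Or.inl (eq_bot_of_map h1)
        · right
          refine Submodule.map_injective_of_injective E.injective_subtype ?_
          rw [h1, Submodule.map_top, Submodule.range_subtype]
    · rw [orderOf_restr hc hinv hfix]; exact hrg
    · intro x y w; exact b1 x y w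
    · intro x y w; exact b2 x y w
    · intro a x y; exact b3 a x y
    · intro a x y; exact b4 a x y
    · intro x y
      have := hsim x y
      rw [one_mul] at this
      exact this
  have hE0 : E ≠ ⊥ := by
    intro h
    rw [h, finrank_bot] at hd
    omega
  obtain ⟨v, hv, hv0⟩ := Submodule.exists_mem_ne_zero_of_ne_bot hE0
  refine hv0 (bnd v fun w => ?_)
  obtain ⟨a, ha, b, hb, rfl⟩ := exists_add hc w
  rw [b2, hEC v hv b hb, add_zero]
  exact hEE ⟨v, hv⟩ ⟨a, ha⟩

end

end Cfsg.Agent.H289.Ux
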