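import Cfsg.Agent.H289.Ux.NoForm

/-!
# UX (S5716): restriction to the subspace generated by two blocks (helper289)
-/

set_option autoImplicit false

namespace Cfsg.Agent.H289.Ux

open Module Cfsg.Agent.H847.Bs Cfsg.Agent.H440.Bs

variable {F V : Type*} [Field F] [AddCommGroup V] [Module F V]

section

variable {D U : Submodule F V}

theorem det_glue (h : IsCompl D U) [FiniteDimensional F V] (x : D ≃ₗ[F] D) (y : U ≃ₗ[F] U) :
    LinearMap.det (glue h x y : V →ₗ[F] V) = LinearMap.det (x : D →ₗ[F] D) * LinearMap.det (y : U →ₗ[F] U) := by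
  have h1 : (glue h x y : V →ₗ[F] V) = (Submodule.prodEquivOfIsCompl D U h : (D × U) →ₗ[F] V) ∘ₗ
      ((x : D →ₗ[F] D).prodMap (y : U →ₗ[F] U)) ∘ₗ ((Submodule.prodEquivOfIsCompl D U h).symm : V →ₗ[F] D × U) := rfl
  rw [h1, LinearMap.det_conj]
  exact LinearMap.det_prodMap _ _

theorem glue_restr_one [FiniteDimensional F V] (h : IsCompl D U) {g : V ≃ₗ[F] V} (hD : Inv g D) (hfix : ∀ v ∈ U, g v = v) :
    glue h (restr g hD) 1 = g := by
  have hC : Inv g U := fun v hv => by rw [hfix v hv]; exact hv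
  have h1 : restr g hC = 1 := by
    refine LinearEquiv.ext fun v => Subtype.ext ?_
    exact hfix v v.2
  have h2 := exists_glue_lin h hD hC
  rw [h1] at h2
  exact h2.symm

end

/-- the elements of `H` which are trivial on the complement `W`, restricted to `U` -/
noncomputable def KU {U W : Submodule F V} (hc : IsCompl U W) (H : Subgroup (V ≃ₗ[F] V)) : Subgroup (U ≃ₗ[F] U) :=
  H.comap ((glueHom hc).comp (MonoidHom.inl _ _))

theorem mem_KU {U W : Submodule F V} (hc : IsCompl U W) {H : Subgroup (V ≃ₗ[F] V)} {g : U ≃ₗ[F] U} :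
    g ∈ KU hc H ↔ glue hc g 1 ∈ H := Iff.rfl

section

variable [FiniteDimensional F V] {E C U : Submodule F V}

theorem restr_mem_KU {W : Submodule F V} (hc : IsCompl U W) {H : Subgroup (V ≃ₗ[F] V)} {g : V ≃ₗ[F] V} (hg : g ∈ H)
    (hU : Inv g U) (hfix : ∀ v ∈ W, g v = v) : restr g hU ∈ KU hc H := by
  rw [mem_KU, glue_restr_one hc hU hfix]
  exact hg

theorem inv_zpowers {y z : V ≃ₗ[F] V} (hz : z ∈ Subgroup.zpowers y) (hy : Inv y E) : Inv z E := by
  obtain ⟨n, rfl⟩ := Subgroup.mem_zpowers_iff.1 hz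
  have h1 : ∀ n : ℕ, Inv (y ^ n) E := by
    intro n
    induction n with
    | zero => intro v hv; exact hv
    | succ n ih => rw [pow_succ]; exact Inv.mul ih hy
  obtain ⟨m, rfl | rfl⟩ := n.eq_nat_or_neg
  · rw [zpow_natCast]; exact h1 m
  · rw [zpow_neg, zpow_natCast]; exact Cfsg.Agent.H440.Bs.Inv.inv (h1 m)

omit [FiniteDimensional F V] in
/-- `z w - w ∈ E` -/
theorem sub_mem (hc : IsCompl E C) {z : V ≃ₗ[F] V} (hinv : Inv z E) (hfix : ∀ v ∈ C, z v = v) (w : V) : z w - w ∈ E := by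
  obtain ⟨a, ha, b, hb, rfl⟩ := exists_add hc w
  rw [map_add, hfix b hb, add_sub_add_right_eq_sub]
  exact E.sub_mem (hinv a ha) ha

omit [FiniteDimensional F V] in
/-- subspaces containing `E` are `z`-invariant -/
theorem inv_of_le (hc : IsCompl E C) {z : V ≃ₗ[F] V} (hinv : Inv z E) (hfix : ∀ v ∈ C, z v = v) (hEU : E ≤ U) :
    Inv z U := by
  intro w hw
  have h1 := U.add_mem (hEU (sub_mem hc hinv hfix w)) hw
  rwa [sub_add_cancel] at h1

omit [FiniteDimensional F V] in
theorem isCompl_comap (hc : IsCompl E C) (hEU : E ≤ U) : IsCompl (E.comap U.subtype) (C.comap U.subtype) := by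
  refine ⟨?_, ?_⟩
  · rw [Submodule.disjoint_def]
    intro v hv hv'
    exact Subtype.ext (Submodule.disjoint_def.1 hc.disjoint v hv hv')
  · rw [codisjoint_iff, eq_top_iff]
    intro v _
    obtain ⟨a, ha, b, hb, hab⟩ := exists_add hc (v : V)
    have hbU : b ∈ U := by
      have : b = v - a := by rw [hab]; abel
      rw [this]
      exact U.sub_mem v.2 (hEU ha)
    refine Submodule.mem_sup.2 ⟨⟨a, hEU ha⟩, ha, ⟨b, hbU⟩, hb, Subtype.ext hab.symm⟩

omit [FiniteDimensional F V] in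
theorem finrank_comap (hEU : E ≤ U) : finrank F (E.comap U.subtype) = finrank F E :=
  (Submodule.comapSubtypeEquivOfLe hEU).finrank_eq

theorem inv_comap {g : V ≃ₗ[F] V} (hU : Inv g U) (hE : Inv g E) : Inv (restr g hU) (E.comap U.subtype) :=
  fun v hv => hE v hv

theorem irr_comap {g : V ≃ₗ[F] V} (hU : Inv g U) (hirr : ∀ W ≤ E, Inv g W → W = ⊥ ∨ W = E) :
    ∀ W ≤ E.comap U.subtype, Inv (restr g hU) W → W = ⊥ ∨ W = E.comap U.subtype := by
  intro W hW hWi
  rcases hirr (W.map U.subtype) (by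
      rintro _ ⟨w, hw, rfl⟩
      exact hW hw) (by
      rintro _ ⟨w, hw, rfl⟩
      exact ⟨restr g hU w, hWi w hw, rfl⟩) with h1 | h1
  · exact Or.inl (eq_bot_of_map h1)
  · right
    refine le_antisymm hW fun v hv => ?_
    have h2 : (v : V) ∈ W.map U.subtype := by rw [h1]; exact hv
    obtain ⟨w, hw, hwv⟩ := h2
    have : w = v := Subtype.ext hwv
    exact this ▸ hw

theorem fix_comap {g : V ≃ₗ[F] V} (hU : Inv g U) (hfix : ∀ v ∈ C, g v = v) :
    ∀ v ∈ C.comap U.subtype, restr g hU v = v :=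
  fun v hv => Subtype.ext (hfix v hv)

end

end Cfsg.Agent.H289.Ux
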