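import Cfsg.Agent.H141.Ux.Stmts
import Cfsg.Agent.H289.Ux.Sub

/-!
# UK4 (S5716, unbounded rank): the group generated by the two blocks, linear case (helper289)
-/

set_option autoImplicit false

namespace Cfsg.Agent.H289.Ux

open Module Cfsg.Agent.H847.Bs Cfsg.Agent.H440.Bs Cfsg.Agent.H141.Ux Cfsg.Agent.LieClassical.OrthCore
open Cfsg Subgroup QuadraticMap

/-- a quadratic form with trivial singular radical and an irreducible group of similitudes is nondegenerate -/
theorem quad_nd {F U : Type} [Field F] [Finite F] [AddCommGroup U] [Module F U] [Module.Finite F U]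
    (K : Subgroup (U ≃ₗ[F] U)) (hK : IrrG K) (h2 : 2 ≤ finrank F U) (Q : QuadraticForm F U)
    (hQ : ∀ v, Q v = 0 → (∀ w, polar Q v w = 0) → v = 0) (hs : ∀ h ∈ K, ∃ c : F, ∀ v, Q (h v) = c * Q v) :
    ∀ v, (∀ w, polar Q v w = 0) → v = 0 := by
  let R : Submodule F U :=
    { carrier := {v | ∀ w, polar Q v w = 0}
      zero_mem' := fun w => by rw [polar_zero_left]
      add_mem' := fun {a b} ha hb w => by rw [polar_add_left, ha w, hb w, add_zero]
      smul_mem' := fun c a ha w => by rw [polar_smul_left, ha w, smul_zero] }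
  have hpol : ∀ h ∈ K, ∃ c : F, ∀ v w, polar Q (h v) (h w) = c * polar Q v w := by
    intro h hh
    obtain ⟨c, hc⟩ := hs h hh
    refine ⟨c, fun v w => ?_⟩
    rw [polar, polar, ← map_add, hc, hc, hc]
    ring
  rcases hK R (by
      intro h hh v hv w
      obtain ⟨c, hc⟩ := hpol h hh
      have h1 : h (h⁻¹ w) = w := h.apply_symm_apply w
      rw [← h1, hc, hv, mul_zero]) with hR | hR
  · intro v hv
    have : v ∈ R := hv
    rw [hR] at this
    exact (Submodule.mem_bot F).1 this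
  · exfalso
    have hp : ∀ v w, polar Q v w = 0 := fun v w => by
      have : v ∈ R := by rw [hR]; trivial
      exact this w
    have hadd : ∀ v w, Q (v + w) = Q v + Q w := fun v w => by
      have := hp v w
      rw [polar, sub_sub, sub_eq_zero] at this
      exact this
    have hne : (⊤ : Submodule F U) ≠ ⊥ := by
      intro h
      have h1 : finrank F (⊤ : Submodule F U) = finrank F U := finrank_top F U
      rw [h, finrank_bot] at h1
      omega
    obtain ⟨u, -, hu⟩ := Submodule.exists_mem_ne_zero_of_ne_bot hne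
    have hQu : Q u ≠ 0 := fun h => hu (hQ u h (hp u))
    by_cases h2F : (2 : F) = 0
    · have hch : ringChar F = 2 := CharP.ringChar_of_prime_eq_zero Nat.prime_two (by exact_mod_cast h2F)
      have hex : ∃ v : U, v ∉ Submodule.span F {u} := by
        by_contra hcon
        push Not at hcon
        have h3 : Submodule.span F {u} = ⊤ := eq_top_iff.2 fun v _ => hcon v
        have h4 := finrank_span_singleton (K := F) hu
        rw [h3, finrank_top] at h4
        omega
      obtain ⟨v, hv⟩ := hex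
      obtain ⟨a, ha⟩ := FiniteField.isSquare_of_char_two hch (Q v / Q u)
      have h5 : Q (a • u + v) = 0 := by
        rw [hadd, QuadraticMap.map_smul, smul_eq_mul, ← ha, div_mul_cancel₀ _ hQu, ← two_mul, h2F, zero_mul]
      have h6 := hQ _ h5 (hp _)
      apply hv
      have h7 : v = (-a) • u := by
        rw [neg_smul]
        exact (neg_eq_of_add_eq_zero_right h6).symm
      rw [h7]
      exact Submodule.smul_mem _ _ (Submodule.mem_span_singleton_self u)
    · have h3 := polar_self Q u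
      rw [hp u u, two_nsmul, ← two_mul] at h3
      rcases mul_eq_zero.1 h3.symm with h4 | h4
      · exact h2F h4
      · exact hQu h4

theorem exists_prime_Pq {F : Type*} [Field F] {e m : ℕ} (h : Pq F e m) :
    ∃ r : ℕ, r.Prime ∧ r ∣ m ∧ orderOf ((Nat.card F : ℕ) : ZMod r) = e := by
  obtain ⟨r, hr, hrm⟩ := Nat.exists_prime_and_dvd h.1
  exact ⟨r, hr, hrm, h.2 r hr hrm⟩

theorem uk4 (hUN : UN) (hUK2 : UK2) : H141.Ux.UK4 := by
  intro F V _ _ _ _ _ e d x y z z' E C E' C' H hy hoe hed hd3 hde hcop he10 hE hPp hE' hGP hz hz'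
  obtain ⟨⟨hdisj, hcompl, hCe, hC'e⟩, hirr2⟩ := hUK2 F V e d x y z z' E C E' C' (by omega) hE hE'
  have hirr3 := hirr2 hGP
  clear hirr2
  have hcU := hGP.compl
  rw [← hCe, ← hC'e] at hcU
  -- notation
  obtain ⟨z1, hz1⟩ : ∃ z1, z1 = x * z' * x⁻¹ := ⟨_, rfl⟩
  obtain ⟨A, hA⟩ : ∃ A, A = E'.map (x : V →ₗ[F] V) := ⟨_, rfl⟩
  obtain ⟨B, hB⟩ : ∃ B, B = C'.map (x : V →ₗ[F] V) := ⟨_, rfl⟩
  have hzE : Inv z E := inv_zpowers hE.mem hE.inv
  have hzE' : Inv z' E' := inv_zpowers hE'.mem hE'.inv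
  have hE'0 : E' ≠ ⊥ := by
    intro h
    have h1 := hE'.dim
    rw [h, finrank_bot] at h1
    omega
  have hirrA : Irr z1 A := by
    rw [hz1, hA]
    exact Irr.conj ⟨hzE', hE'0, hE'.irr⟩
  have hcAB : IsCompl A B := by
    rw [hA, hB]
    exact (Submodule.orderIsoMapComap x).isCompl hE'.compl
  have hfixB : ∀ v ∈ B, z1 v = v := by
    rw [hB, hz1]
    rintro _ ⟨v, hv, rfl⟩
    have h1 : x⁻¹ ((x : V →ₗ[F] V) v) = v := x.symm_apply_apply v
    show x (z' (x⁻¹ ((x : V →ₗ[F] V) v))) = _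
    rw [h1, hE'.fix v hv]
    rfl
  have hdimA : finrank F A = d := by
    rw [hA, ← hE'.dim]
    exact LinearEquiv.finrank_map_eq x E'
  have hordz1 : orderOf z1 = orderOf z' := by
    rw [hz1]
    exact orderOf_injective (MulAut.conj x).toMonoidHom (MulAut.conj x).injective z'
  rw [← hz1] at hz' hirr3
  have hdisjA := hGP.disj
  rw [← hA] at hcU hirr3 hdisjA ⊢
  rw [← hB] at hcU ⊢
  obtain ⟨U, hU⟩ : ∃ U, U = E ⊔ A := ⟨_, rfl⟩
  obtain ⟨W, hW⟩ : ∃ W, W = C ⊓ B := ⟨_, rfl⟩
  rw [← hU] at hcU hirr3 ⊢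
  rw [← hW] at hcU ⊢
  have hEU : E ≤ U := hU ▸ le_sup_left
  have hAU : A ≤ U := hU ▸ le_sup_right
  have hdimU : finrank F U = e + d := by
    have h1 := Submodule.finrank_sup_add_finrank_inf_eq E A
    rw [disjoint_iff.1 hdisjA, finrank_bot, ← hU, hE.dim, hdimA] at h1
    exact h1
  have hzU : Inv z U := inv_of_le hE.compl hzE hE.fix hEU
  have hz1U : Inv z1 U := inv_of_le hcAB hirrA.inv hfixB hAU
  have hzW : ∀ v ∈ W, z v = v := fun v hv => hE.fix v (hW ▸ hv : v ∈ C ⊓ B).1
  have hz1W : ∀ v ∈ W, z1 v = v := fun v hv => hfixB v (hW ▸ hv : v ∈ C ⊓ B).2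
  have hzK : restr z hzU ∈ KU hcU H := restr_mem_KU hcU hz hzU hzW
  have hz1K : restr z1 hz1U ∈ KU hcU H := restr_mem_KU hcU hz' hz1U hz1W
  have hK : IrrG (KU hcU H) := by
    intro Y hY
    have h1 := hirr3 (Y.map U.subtype) (Submodule.map_subtype_le U Y) (by
      rintro _ ⟨w, hw, rfl⟩
      exact ⟨restr z hzU w, hY _ hzK w hw, rfl⟩) (by
      rintro _ ⟨w, hw, rfl⟩
      exact ⟨restr z1 hz1U w, hY _ hz1K w hw, rfl⟩)
    rcases h1 with h1 | h1
    · exact Or.inl (eq_bot_of_map h1)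
    · right
      refine Submodule.map_injective_of_injective U.injective_subtype ?_
      rw [h1, Submodule.map_top, Submodule.range_subtype]
  -- the blocks in `U`
  have hcE := isCompl_comap (U := U) hE.compl hEU
  have hcA := isCompl_comap (U := U) hcAB hAU
  have hdE : finrank F (E.comap U.subtype) = e := (finrank_comap hEU).trans hE.dim
  have hdA : finrank F (A.comap U.subtype) = d := (finrank_comap hAU).trans hdimA
  have hdC : finrank F (C.comap U.subtype) = d := by
    have h1 := Submodule.finrank_add_eq_of_isCompl hcE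
    rw [hdE, hdimU] at h1
    omega
  have hdB : finrank F (B.comap U.subtype) = e := by
    have h1 := Submodule.finrank_add_eq_of_isCompl hcA
    rw [hdA, hdimU] at h1
    omega
  have hC0 : C.comap U.subtype ≠ ⊥ := by
    intro h
    rw [h, finrank_bot] at hdC
    omega
  have hB0 : B.comap U.subtype ≠ ⊥ := by
    intro h
    rw [h, finrank_bot] at hdB
    omega
  have hoz : orderOf (restr z hzU) = orderOf z := orderOf_restr hcU hzU hzW
  have hoz1 : orderOf (restr z1 hz1U) = orderOf z' := (orderOf_restr hcU hz1U hz1W).trans hordz1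
  obtain ⟨r, hr, hrz, hrord⟩ := exists_prime_Pq hE.ord
  obtain ⟨r1, hr1, hrz1, hrord1⟩ := exists_prime_Pq hE'.ord
  rw [← hoz] at hrz
  rw [← hoz1] at hrz1
  -- no form for `z`
  have nf := no_form (s := fun a => a) hcE (fix_comap hzU hE.fix) hC0 (inv_comap hzU hzE) (irr_comap hzU hE.irr) (by omega) hdE hr hrz
    hrord (Or.inl ⟨fun _ => rfl, hoe⟩)
  rcases hUN F U (KU hcU H) e (restr z hzU) (C.comap U.subtype) (by omega) (by omega) hK hzK (by rw [hoz]; exact hPp) hC0
    (by omega) (fix_comap hzU hE.fix) with h | h | h | h | h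
  · obtain ⟨p, T, hp, hpg, -⟩ := h
    exfalso
    rw [hdimU, Nat.gcd_self_add_left, Nat.Coprime.gcd_eq_one (Nat.Coprime.symm hcop)] at hpg
    exact hp.one_lt.ne' (Nat.dvd_one.1 hpg)
  · intro g hg hgU hgfix
    have h1 := glue_restr_one hcU hgU hgfix
    have h2 : restr g hgU ∈ slV F U := by
      have h3 : LinearMap.det (g : V →ₗ[F] V) = 1 := hg
      rw [← h1, det_glue] at h3
      have h4 : LinearMap.det (((1 : W ≃ₗ[F] W) : W →ₗ[F] W)) = 1 := LinearMap.det_id
      rw [h4, mul_one] at h3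
      exact h3
    have h5 := h h2
    rw [mem_KU, h1] at h5
    exact h5
  · exfalso
    obtain ⟨Φ, hΦ, -, hsim⟩ := h
    obtain ⟨c, hc⟩ := hsim _ hzK
    exact nf Φ.B Φ.add_left Φ.add_right Φ.smul_left (fun a x y => by rw [Φ.smul_right, hΦ.s]) Φ.refl hΦ.nd c hc
  · exfalso
    obtain ⟨t, Φ, hΦ, -, hsim⟩ := h
    obtain ⟨c, hc⟩ := hsim _ hz1K
    exact no_form hcA (fix_comap hz1U hfixB) hB0 (inv_comap hz1U hirrA.inv) (irr_comap hz1U hirrA.min) (by omega) hdA hr1 hrz1
      hrord1 Φ.s (Or.inr ⟨⟨t, hΦ.card, hΦ.s⟩, hed⟩) Φ.B Φ.add_left Φ.add_right Φ.smul_left Φ.smul_right Φ.refl hΦ.nd c hc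
  · exfalso
    obtain ⟨Q, hQ, -, hsim⟩ := h
    have hnd := quad_nd _ hK (by omega) Q hQ hsim
    obtain ⟨c, hc⟩ := hsim _ hzK
    refine nf (fun u v => polar Q u v) (frmQ Q).add_left (frmQ Q).add_right (frmQ Q).smul_left (frmQ Q).smul_right
      (frmQ Q).refl hnd c fun u v => ?_
    show polar Q _ _ = c * polar Q u v
    rw [polar, polar, ← map_add, hc, hc, hc]
    ring

end Cfsg.Agent.H289.Ux
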